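import Mathlib
import Cfsg.Prelude.Def_Involutions
import Cfsg.Prelude.Def_PLocal
import Cfsg.Prelude.Def_TwoFusion
import Cfsg.Agent.Transfer.PGroupNormal

/-!
# Strongly closed 2-subgroups with a proper subgroup containing the centralizers

`Hyp T S H`: `S ≠ 1` is strongly closed in the Sylow 2-subgroup `T` and `H ≠ G` contains the centralizers of the
elements of `S` and the normalizer of `Ω₁(S)`.

* `Hyp.star` : `S ∩ H^g = 1` for `g ∉ H`.
* `Hyp.strong` : if all involutions of `T ∩ ⟨S^G⟩` lie in `S` then `H ∩ ⟨S^G⟩` is strongly embedded in `⟨S^G⟩`.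
-/

set_option autoImplicit false

namespace Cfsg.Agent.H331.SCBasic

open Cfsg Subgroup

variable {G : Type*} [Group G]

theorem mem_normalizer_of_conj [Finite G] {C : Subgroup G} {b : G} (h : ∀ x ∈ C, b * x * b⁻¹ ∈ C) :
    b ∈ normalizer (C : Set G) := by
  rw [mem_normalizer_iff]
  intro x
  refine ⟨h x, fun hx => ?_⟩
  let f : C → C := fun c => ⟨b * c * b⁻¹, h c c.2⟩
  have hf : Function.Injective f := by
    rintro ⟨c, hc⟩ ⟨d, hd⟩ hcd
    have h1 : b * c * b⁻¹ = b * d * b⁻¹ := congrArg Subtype.val hcd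
    exact Subtype.ext (mul_left_cancel (mul_right_cancel h1))
  obtain ⟨⟨c, hc⟩, hcx⟩ := Finite.surjective_of_injective hf ⟨b * x * b⁻¹, hx⟩
  have h1 : b * c * b⁻¹ = b * x * b⁻¹ := congrArg Subtype.val hcx
  rwa [← mul_left_cancel (mul_right_cancel h1)]

theorem mem_normalizer_omega [Finite G] {S : Subgroup G} {b : G} (h : ∀ x ∈ S, b * x * b⁻¹ ∈ S) :
    b ∈ normalizer ((omegaOne 2 S : Subgroup G) : Set G) := by
  refine mem_normalizer_of_conj fun x hx => ?_
  have h1 : (omegaOne 2 S).map (MulAut.conj b).toMonoidHom ≤ omegaOne 2 S := by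
    rw [omegaOne, MonoidHom.map_closure, closure_le]
    rintro _ ⟨y, ⟨hy, hy2⟩, rfl⟩
    refine subset_closure ⟨h y hy, ?_⟩
    show (b * y * b⁻¹) ^ 2 = 1
    rw [conj_pow, hy2, mul_one, mul_inv_cancel]
  exact h1 ⟨x, hx, rfl⟩

/-- The setting. -/
structure Hyp [Finite G] (T : Sylow 2 G) (S H : Subgroup G) : Prop where
  ne : S ≠ ⊥
  sc : IsStronglyClosed S (T : Subgroup G)
  top : H ≠ ⊤
  cen : ∀ s ∈ S, s ≠ 1 → centralizer ({s} : Set G) ≤ H
  nor : normalizer ((omegaOne 2 S : Subgroup G) : Set G) ≤ H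

variable [Finite G]

/-- A 2-subgroup of `H` is conjugate in `H` to a subgroup of the Sylow 2-subgroup `T ≤ H` of `G`. -/
theorem exists_conj_le {H : Subgroup G} (T : Sylow 2 G) (hT : (T : Subgroup G) ≤ H) {D : Subgroup G}
    (hD : IsPGroup 2 D) (hDH : D ≤ H) : ∃ h ∈ H, ∀ d ∈ D, h * d * h⁻¹ ∈ (T : Subgroup G) := by
  have : Fact (Nat.Prime 2) := ⟨Nat.prime_two⟩
  let TH : Sylow 2 H := T.subtype hT
  have h1 : IsPGroup 2 (D.subgroupOf H) := hD.comap_of_injective H.subtype H.subtype_injective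
  obtain ⟨Q, hQ⟩ := h1.exists_le_sylow
  obtain ⟨h, hh⟩ := MulAction.exists_smul_eq H Q TH
  refine ⟨h, h.2, fun d hd => ?_⟩
  have h3 : h * (⟨d, hDH hd⟩ : H) * h⁻¹ ∈ TH := by
    rw [← hh]
    exact ⟨_, hQ (mem_subgroupOf.2 hd), rfl⟩
  exact h3

/-- The normalizer condition. -/
theorem exists_norm {S D : Subgroup G} (hS : IsPGroup 2 S) (hDS : D ≤ S) (hne : ∃ u ∈ S, u ∉ D) :
    ∃ u ∈ S, u ∉ D ∧ ∀ d, d ∈ D ↔ u * d * u⁻¹ ∈ D := by
  have : Fact (Nat.Prime 2) := ⟨Nat.prime_two⟩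
  have h1 : Group.IsNilpotent S := hS.isNilpotent
  have h2 : NormalizerCondition S := Group.normalizerCondition_of_isNilpotent
  have h3 : D.subgroupOf S < ⊤ := by
    rw [lt_top_iff_ne_top]
    intro h
    obtain ⟨u, hu, huD⟩ := hne
    exact huD (mem_subgroupOf.1 (h ▸ mem_top (⟨u, hu⟩ : S)))
  obtain ⟨u, hu, huD⟩ := SetLike.exists_of_lt (h2 _ h3)
  refine ⟨u, u.2, fun h => huD (mem_subgroupOf.2 h), fun d => ?_⟩
  rw [mem_normalizer_iff] at hu
  constructor
  · intro hd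
    exact mem_subgroupOf.1 ((hu ⟨d, hDS hd⟩).1 (mem_subgroupOf.2 hd))
  · intro hd
    have hdS : d ∈ S := by
      have h4 := S.mul_mem (S.mul_mem (S.inv_mem u.2) (hDS hd)) u.2
      have e : (u : G)⁻¹ * (u * d * (u : G)⁻¹) * u = d := by group
      rwa [e] at h4
    exact mem_subgroupOf.1 ((hu ⟨d, hdS⟩).2 (mem_subgroupOf.2 hd))

/-- A nontrivial normal subgroup of a 2-group contains an involution of the centre. -/
theorem exists_cen {E D : Subgroup G} (hE : IsPGroup 2 E) (hDE : D ≤ E) (hn : ∀ e ∈ E, ∀ d ∈ D, e * d * e⁻¹ ∈ D)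
    (hD : D ≠ ⊥) : ∃ d ∈ D, d ≠ 1 ∧ d * d = 1 ∧ ∀ e ∈ E, e * d = d * e := by
  have : Fact (Nat.Prime 2) := ⟨Nat.prime_two⟩
  have h1 : (D.subgroupOf E).Normal :=
    ⟨fun d hd e => mem_subgroupOf.2 (hn e e.2 d (mem_subgroupOf.1 hd))⟩
  have h2 : D.subgroupOf E ≠ ⊥ := by
    intro h
    apply hD
    rw [eq_bot_iff]
    intro d hd
    have h3 : (⟨d, hDE hd⟩ : E) ∈ D.subgroupOf E := mem_subgroupOf.2 hd
    rw [h, mem_bot] at h3
    exact mem_bot.2 (congrArg Subtype.val h3)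
  obtain ⟨z, hz, hzc, hz2⟩ := Cfsg.Agent.Transfer.PGroupNormal.exists_mem_inf_center_orderOf hE _ h2
  refine ⟨z, mem_subgroupOf.1 hz, ?_, ?_, fun e he => ?_⟩
  · intro h
    have h3 : z = 1 := Subtype.ext h
    rw [h3, orderOf_one] at hz2
    norm_num at hz2
  · have h3 := pow_orderOf_eq_one z
    rw [hz2, pow_two] at h3
    exact congrArg Subtype.val h3
  · exact congrArg Subtype.val (mem_center_iff.1 hzc ⟨e, he⟩)

namespace Hyp

variable {T : Sylow 2 G} {S H : Subgroup G} (h : Hyp T S H)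

include h

theorem isPGroup : IsPGroup 2 S := T.2.to_le h.sc.1

theorem conj_mem {g x : G} (hx : x ∈ S) (hg : g * x * g⁻¹ ∈ (T : Subgroup G)) : g * x * g⁻¹ ∈ S := h.sc.2 x hx g hg

theorem le_H : (T : Subgroup G) ≤ H := by
  intro t ht
  refine h.nor (mem_normalizer_omega fun x hx => h.conj_mem hx ?_)
  exact mul_mem (mul_mem ht (h.sc.1 hx)) (inv_mem ht)

theorem S_le_H : S ≤ H := h.sc.1.trans h.le_H

/-- The key property. -/
theorem star {g : G} (hg : g ∉ H) {x : G} (hx : x ∈ S) (hgx : g * x * g⁻¹ ∈ H) : x = 1 := by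
  by_contra hx1
  -- the subgroup `D = S ∩ H^(g⁻¹)`
  let D : Subgroup G := S ⊓ H.comap (MulAut.conj g).toMonoidHom
  have hmD : ∀ y, y ∈ D ↔ y ∈ S ∧ g * y * g⁻¹ ∈ H := fun y => Iff.rfl
  have hD : D ≠ ⊥ := by
    intro hb
    have h1 : x ∈ D := (hmD x).2 ⟨hx, hgx⟩
    rw [hb, mem_bot] at h1
    exact hx1 h1
  -- replace `g`
  obtain ⟨a, ha, hconj⟩ := exists_conj_le T h.le_H (D := D.map (MulAut.conj g).toMonoidHom)
    ((h.isPGroup.to_le inf_le_left).map _) (by rintro _ ⟨y, hy, rfl⟩; exact hy.2)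
  obtain ⟨k, hk⟩ : ∃ k, k = a * g := ⟨_, rfl⟩
  have hkH : k ∉ H := fun h1 => hg (by
    have h2 := mul_mem (inv_mem ha) h1
    rwa [hk, inv_mul_cancel_left] at h2)
  have hkD : ∀ y ∈ D, k * y * k⁻¹ ∈ S := by
    intro y hy
    refine h.conj_mem hy.1 ?_
    have h1 := hconj _ ⟨y, hy, rfl⟩
    have e : k * y * k⁻¹ = a * (g * y * g⁻¹) * a⁻¹ := by rw [hk]; group
    rw [e]; exact h1
  have hmD' : ∀ y, y ∈ S → k * y * k⁻¹ ∈ H → y ∈ D := by
    intro y hy hyk
    refine (hmD y).2 ⟨hy, ?_⟩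
    have h1 := mul_mem (mul_mem (inv_mem ha) hyk) ha
    have e : a⁻¹ * (k * y * k⁻¹) * a = g * y * g⁻¹ := by rw [hk]; group
    rwa [e] at h1
  by_cases hne : ∃ u ∈ S, u ∉ D
  · obtain ⟨u, hu, huD, hun⟩ := exists_norm h.isPGroup inf_le_left hne
    -- the subgroup normalizing `D` in `S`
    have hEp : IsPGroup 2 (D ⊔ zpowers u : Subgroup G) :=
      h.isPGroup.to_le (sup_le inf_le_left (zpowers_le.2 hu))
    have huN : u ∈ normalizer (D : Set G) := mem_normalizer_iff.2 hun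
    have hEN : D ⊔ zpowers u ≤ normalizer (D : Set G) := sup_le le_normalizer (zpowers_le.2 huN)
    obtain ⟨d, hd, hd1, -, hdc⟩ := exists_cen hEp le_sup_left
      (fun e he d hd => (mem_normalizer_iff.1 (hEN he) d).1 hd) hD
    have h1 : u * d = d * u := hdc u (mem_sup_right (mem_zpowers u))
    have h2 : k * d * k⁻¹ ≠ 1 := by
      intro h3
      rw [conj_eq_one_iff] at h3
      exact hd1 h3
    have h3 : k * u * k⁻¹ ∈ centralizer ({k * d * k⁻¹} : Set G) := by
      rw [mem_centralizer_singleton_iff]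
      calc k * u * k⁻¹ * (k * d * k⁻¹) = k * (u * d) * k⁻¹ := by group
        _ = k * (d * u) * k⁻¹ := by rw [h1]
        _ = k * d * k⁻¹ * (k * u * k⁻¹) := by group
    exact huD (hmD' u hu (h.cen _ (hkD d hd) h2 h3))
  · push Not at hne
    exact hkH (h.nor (mem_normalizer_omega fun y hy => hkD y (hne y hy)))

theorem exists_notMem : ∃ g, g ∉ H := by
  by_contra hcon
  push Not at hcon
  exact h.top (eq_top_iff.2 fun g _ => hcon g)

/-- A normal subgroup containing a nontrivial element of `S` is not contained in `H`. -/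
theorem not_le {M : Subgroup G} (hM : M.Normal) {s : G} (hs : s ∈ S) (hs1 : s ≠ 1) (hsM : s ∈ M) : ¬ M ≤ H := by
  intro hle
  obtain ⟨g, hg⟩ := h.exists_notMem
  exact hs1 (h.star hg hs (hle (hM.conj_mem s hsM g)))

theorem exists_ne_one : ∃ s ∈ S, s ≠ 1 := by
  by_contra hcon
  push Not at hcon
  exact h.ne (eq_bot_iff.2 fun s hs => mem_bot.2 (hcon s hs))

theorem le_X : S ≤ normalClosure (S : Set G) := subset_normalClosure

/-- **Strong embedding.** -/
theorem strong (hO : ∀ t ∈ (T : Subgroup G), t ∈ normalClosure (S : Set G) → t * t = 1 → t ∈ S) :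
    IsStronglyEmbedded ((H ⊓ normalClosure (S : Set G)).subgroupOf (normalClosure (S : Set G))) := by
  have : Fact (Nat.Prime 2) := ⟨Nat.prime_two⟩
  obtain ⟨s, hs, hs1⟩ := h.exists_ne_one
  refine ⟨?_, ?_, ?_⟩
  · intro htop
    refine h.not_le normalClosure_normal hs hs1 (h.le_X hs) ?_
    rw [subgroupOf_eq_top] at htop
    exact htop.trans inf_le_left
  · -- even order
    obtain ⟨z, hz, hz1, hz2, -⟩ := exists_cen h.isPGroup le_rfl
      (fun e he d hd => mul_mem (mul_mem he hd) (inv_mem he)) h.ne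
    have h1 : (⟨z, h.le_X hz⟩ : normalClosure (S : Set G)) ∈
        (H ⊓ normalClosure (S : Set G)).subgroupOf (normalClosure (S : Set G)) :=
      mem_subgroupOf.2 ⟨h.S_le_H hz, h.le_X hz⟩
    have h2 := orderOf_dvd_natCard (⟨_, h1⟩ :
      (H ⊓ normalClosure (S : Set G)).subgroupOf (normalClosure (S : Set G)))
    rw [Subgroup.orderOf_mk, Subgroup.orderOf_mk, orderOf_eq_prime (by rw [pow_two, hz2]) hz1] at h2
    exact even_iff_two_dvd.2 h2
  · intro g hg
    rw [← Nat.not_even_iff_odd]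
    intro hev
    obtain ⟨⟨u, hu⟩, hu2⟩ := exists_prime_orderOf_dvd_card' 2 (even_iff_two_dvd.1 hev)
    rw [Subgroup.orderOf_mk] at hu2
    obtain ⟨hu3, v, hv, hvu⟩ := hu
    have hu4 : (u : G) ∈ H := (mem_subgroupOf.1 hu3).1
    have hv4 : (v : G) ∈ H := (mem_subgroupOf.1 hv).1
    have hgH : (g : G) ∉ H := fun h1 => hg (mem_subgroupOf.2 ⟨h1, g.2⟩)
    have hvu' : (g : G) * v * (g : G)⁻¹ = u := congrArg Subtype.val hvu
    have huu : (u : G) * u = 1 := by
      have h1 := pow_orderOf_eq_one u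
      rw [hu2, pow_two] at h1
      exact congrArg Subtype.val h1
    have hu1 : (u : G) ≠ 1 := by
      intro h1
      have h2 : u = 1 := Subtype.ext h1
      rw [h2, orderOf_one] at hu2
      norm_num at hu2
    have hup : IsPGroup 2 (zpowers (u : G)) := by
      apply IsPGroup.of_card (n := 1)
      rw [Nat.card_zpowers, pow_one]
      exact orderOf_eq_prime (by rw [pow_two, huu]) hu1
    obtain ⟨a, ha, hconj⟩ := exists_conj_le T h.le_H hup (zpowers_le.2 hu4)
    have h1 := hconj u (mem_zpowers _)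
    have h2 : a * u * a⁻¹ ∈ S := by
      refine hO _ h1 (normalClosure_normal.conj_mem _ u.2 a) ?_
      calc a * u * a⁻¹ * (a * u * a⁻¹) = a * (u * u) * a⁻¹ := by group
        _ = 1 := by rw [huu]; group
    have h3 : (a * g)⁻¹ ∉ H := by
      intro h4
      have h5 := mul_mem (inv_mem ha) (inv_mem h4)
      rw [inv_inv, inv_mul_cancel_left] at h5
      exact hgH h5
    have h4 := h.star h3 h2 (by
      have e : (a * g)⁻¹ * (a * u * a⁻¹) * ((a * g)⁻¹)⁻¹ = v := by rw [← hvu']; group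
      rw [e]; exact hv4)
    rw [conj_eq_one_iff] at h4
    exact hu1 h4

end Hyp

end Cfsg.Agent.H331.SCBasic
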